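import Cfsg.Agent.H407.IF.End
import Cfsg.Agent.H74.SpN
import Cfsg.Agent.H847.IF.Lift
import Cfsg.Agent.H209.IF.Kill

/-!
# S5719, `PSp_2m(q)`, `q` even, `m ≥ 3` (helper407): transfer and assembly

`hyp_of` : `IF A Γ` in `PSp m F` gives `Hyp` for the preimage of `A` in `Sp B`.
`killE_of` : the cell from the two pieces `hD` (descent to rank at most 2) and `hT` (rank 2 gives a transvection).
-/

set_option autoImplicit false
set_option linter.unusedSectionVars false
set_option linter.unusedSimpArgs false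

namespace Cfsg.Agent.H407.IF

open Module Subgroup Cfsg Cfsg.Agent.H74.Psp Cfsg.Agent.H209.Fxy ClassicalGeometry.SympBasic

universe u

variable {F : Type u} [Field F]

/-- `Sp B → PSp` -/
noncomputable def piS (F : Type u) [Field F] (m : ℕ) : Sp (sympBilin m F) →* PSp m F :=
  (QuotientGroup.mk' (Subgroup.center (Matrix.symplecticGroup (Fin m) F))).comp
    (MulEquiv.ofBijective (toSp m) (toSp_bijective m)).symm.toMonoidHom

theorem piS_surj (m : ℕ) : Function.Surjective (piS F m) :=
  (QuotientGroup.mk'_surjective _).comp (MulEquiv.surjective _)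

theorem piS_toSp (m : ℕ) (A : Matrix.symplecticGroup (Fin m) F) : piS F m (toSp m A) = QuotientGroup.mk' _ A := by
  show QuotientGroup.mk' _ ((MulEquiv.ofBijective (toSp m) (toSp_bijective m)).symm (toSp m A)) = _
  congr 1
  exact (MulEquiv.ofBijective (toSp m) (toSp_bijective m)).symm_apply_apply A

theorem piS_inj (h2 : (2 : F) = 0) {m : ℕ} {g : Sp (sympBilin m F)} (h : piS F m g = 1) : g = 1 := by
  have hB := symp_sympBilin (F := F) m
  obtain ⟨A, rfl⟩ := (toSp_bijective (F := F) m).2 g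
  rw [piS_toSp, QuotientGroup.mk'_apply, QuotientGroup.eq_one_iff] at h
  apply Sp.ext'
  intro v
  rw [one_smul]
  by_cases hv : v = 0
  · rw [hv, smul_zero]
  have h1 : t (sympBilin m F) (toSp m A • v) 1 = t (sympBilin m F) v 1 := by
    rw [← conj_t hB]
    obtain ⟨T, hT⟩ := (toSp_bijective (F := F) m).2 (t (sympBilin m F) v 1)
    rw [← hT, ← map_mul, ← Subgroup.mem_center_iff.1 h T, map_mul, mul_inv_cancel_right]
  set w := toSp m A • v with hw
  obtain ⟨y, hy⟩ := sep0 hB hv
  have hyv : sympBilin m F y v = 1 := by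
    rw [skew hB, hy, ← sub_eq_zero]
    linear_combination (-1 : F) * h2
  have h3 : t (sympBilin m F) w 1 • y = t (sympBilin m F) v 1 • y := by rw [h1]
  rw [t_smul hB, t_smul hB, one_mul, one_mul, hyv, one_smul, add_right_inj] at h3
  -- `v = λ w`
  set l := sympBilin m F y w with hl
  have h4 : l * l = 1 := by
    have h5 := congrArg (sympBilin m F y) h3
    rw [map_smul, hyv, smul_eq_mul, ← hl] at h5
    exact h5
  have h5 : l = 1 := by
    have h6 : (l - 1) * (l - 1) = 0 := by linear_combination h4 + (1 - l) * h2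
    rcases mul_eq_zero.1 h6 with h7 | h7 <;> exact sub_eq_zero.1 h7
  rw [h5, one_smul] at h3
  exact h3

/-- **`IF` gives `Hyp`** -/
theorem hyp_of [Finite F] (h2 : (2 : F) = 0) {m : ℕ} [IsSimpleGroup (PSp m F)] [Finite (PSp m F)]
    {A : Subgroup (PSp m F)} {Γ : Subgroup (MulAut (PSp m F))} (h : IF A Γ) (hna : ∃ a b : PSp m F, a * b ≠ b * a) :
    Hyp (A.comap (piS F m)) := by
  constructor
  · intro t ht ht1 htt L hL
    refine Cfsg.Agent.H847.IF.lift_E2 h hna (piS F m) (piS_surj m) ht ?_ ?_ ?_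
    · intro h1
      exact ht1 (piS_inj h2 h1)
    · rw [htt, map_one]
    · intro b hb
      rw [hL b hb]
  · intro t ht ht1 htt
    have ho : orderOf (piS F m t) = 2 := by
      apply orderOf_eq_prime _ (fun h1 => ht1 (piS_inj h2 h1))
      rw [pow_two, ← map_mul, htt, map_one]
    obtain ⟨-, -, -, h4, -⟩ := Cfsg.Agent.H999.IFB.IF.E2' h hna ht ho
    have h5 : (centralizer ({piS F m t} : Set (PSp m F))).index ≤ (centralizer ({t} : Set (Sp (sympBilin m F)))).index := by
      rw [← index_comap_of_surjective _ (piS_surj m)]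
      refine Nat.le_of_dvd (Nat.pos_of_ne_zero index_ne_zero_of_finite) (index_dvd_of_le ?_)
      intro x hx
      rw [mem_centralizer_iff] at hx
      rw [mem_comap, mem_centralizer_iff]
      rintro _ rfl
      rw [← map_mul, hx t rfl, map_mul]
    calc 729 ^ 5 < A.index ^ 5 := Nat.pow_lt_pow_left h.big (by norm_num)
      _ < (centralizer ({piS F m t} : Set (PSp m F))).index ^ 6 := h4
      _ ≤ _ := Nat.pow_le_pow_left h5 6

theorem card_model [Finite F] (m : ℕ) : Nat.card (Fin m ⊕ Fin m → F) = Nat.card F ^ (2 * m) := by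
  rw [Nat.card_fun, Nat.card_sum, Nat.card_fin, two_mul]

/-- **the cell from its pieces** -/
theorem killE_of [Fintype F] (m : ℕ) (hev : Even (Fintype.card F)) (hm : 3 ≤ m) (hs : IsSimpleGroup (PSp m F))
    (hD : ∀ X : Subgroup (Sp (sympBilin m F)), Hyp X → (∃ t ∈ X, t ≠ 1 ∧ t * t = 1) →
      ∃ t ∈ X, t ≠ 1 ∧ t * t = 1 ∧ finrank F (LinearMap.range (nl t)) ≤ 2)
    (hT : ∀ X : Subgroup (Sp (sympBilin m F)), Hyp X →
      (∃ t ∈ X, t ≠ 1 ∧ t * t = 1 ∧ finrank F (LinearMap.range (nl t)) ≤ 2) →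
      ∃ (v : Fin m ⊕ Fin m → F) (c : F), v ≠ 0 ∧ c ≠ 0 ∧ t (sympBilin m F) v c ∈ X) :
    KillE (PSp m F) := by
  rintro A Γ h ⟨a, ha, ho⟩
  have hfin : Finite (PSp m F) := by
    unfold PSp
    infer_instance
  have h2 : (2 : F) = 0 := by
    have h1 : ringChar F = 2 := FiniteField.even_card_iff_char_two.2 (Nat.even_iff.1 hev)
    have h3 := (ringChar.spec F 2).2 (by rw [h1])
    exact_mod_cast h3
  have hB := symp_sympBilin (F := F) m
  have hV := card_model (F := F) m
  have hna : ∃ a b : PSp m F, a * b ≠ b * a := by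
    by_contra hcon
    push Not at hcon
    have hn : A.Normal := ⟨fun a ha g => by rw [hcon g a, mul_inv_cancel_right]; exact ha⟩
    rcases hn.eq_bot_or_eq_top with h1 | h1
    · exact h.ne_bot h1
    · exact h.ne_top h1
  set X := A.comap (piS F m) with hXd
  have hX : Hyp X := hyp_of h2 h hna
  -- an involution
  have hi : ∃ t ∈ X, t ≠ 1 ∧ t * t = 1 := by
    obtain ⟨x, rfl⟩ := piS_surj m a
    refine ⟨x, ha, ?_, ?_⟩
    · rintro rfl
      rw [map_one, orderOf_one] at ho
      omega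
    · apply piS_inj h2
      rw [map_mul, ← pow_two, ← ho, pow_orderOf_eq_one]
  obtain ⟨v, c, hv, hc, htX⟩ := hT X hX (hD X hX hi)
  by_cases hm4 : Nat.card F = 2 → 4 ≤ m
  · have hTv := tv_all hB h2 hm hV hm4 hX hv hc htX
    -- `X ≠ ⊤`
    have hXtop : X.comap (toSp m) ≠ ⊤ := by
      intro h1
      apply h.ne_top
      rw [Subgroup.eq_top_iff'] at h1 ⊢
      intro y
      obtain ⟨g, rfl⟩ := piS_surj m y
      obtain ⟨M, rfl⟩ := (toSp_bijective (F := F) m).2 g
      exact h1 M
    obtain ⟨x, hx⟩ := exists_not_Tv m hXtop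
    apply hx
    intro b
    obtain ⟨M, hM⟩ := (toSp_bijective (F := F) m).2 (t (sympBilin m F) x b)
    refine ⟨M, ?_, hM⟩
    show toSp m M ∈ X
    rw [hM]
    exact hTv x b
  · -- `Sp_6(2)`
    push Not at hm4
    obtain ⟨hq, hm3⟩ := hm4
    have hm' : m = 3 := by omega
    have h1 := hX.big _ htX (t_ne_one hB hv hc) (t_mem_SI hB h2 hv hc).1
    have h3 := index_le_card (t_mem_SI hB h2 hv hc)
    have h4 := card_SI hB h2 hV 1
    rw [Finset.prod_range_one, pow_one, pow_zero, hq] at h4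
    have h5 : (centralizer ({t (sympBilin m F) v c} : Set (Sp (sympBilin m F)))).index ≤ 128 := by
      refine h3.trans ?_
      have h6 : (2 : ℕ) ^ (1 * (2 * m + 1)) = 128 := by rw [hm']; norm_num
      rw [h6] at h4
      omega
    have h6 := Nat.pow_le_pow_left h5 6
    have h7 : (729 : ℕ) ^ 5 < 128 ^ 6 := lt_of_lt_of_le h1 h6
    norm_num at h7

end Cfsg.Agent.H407.IF
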