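import Cfsg.Agent.H407.IF.KW

/-!
# S5719, symplectic groups in characteristic 2 (helper407): a transvection in `X`

`tv_all` : if `X` satisfies `Hyp` and contains a transvection then it contains all transvections.
`exists_E` : an involution of rank at most 2 is a Siegel element.
-/

set_option autoImplicit false
set_option linter.unusedSectionVars false
set_option linter.unusedSimpArgs false

namespace Cfsg.Agent.H407.IF

open Module Subgroup Cfsg.Agent.H74.Psp

variable {F V : Type*} [Field F] [AddCommGroup V] [Module F V] {B : V →ₗ[F] V →ₗ[F] F}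

/-- the orthogonal complement of a hyperbolic pair -/
def hyp2 (B : V →ₗ[F] V →ₗ[F] F) (v v' : V) : Submodule F V := LinearMap.ker (B v) ⊓ LinearMap.ker (B v')

theorem mem_hyp2 {v v' x : V} : x ∈ hyp2 B v v' ↔ B v x = 0 ∧ B v' x = 0 := Iff.rfl

theorem dc_hyp2 (hB : Symp B) {v v' : V} (hvv : B v v' = 1) : Dc B (hyp2 B v v') (Submodule.span F {v, v'}) := by
  have hv'v : B v' v = -1 := by rw [skew hB, hvv]
  constructor
  · constructor
    · rw [Submodule.disjoint_def]
      intro x hx hx'
      obtain ⟨a, b, rfl⟩ := Submodule.mem_span_pair.1 hx'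
      obtain ⟨h1, h2⟩ := mem_hyp2.1 hx
      rw [map_add, map_smul, map_smul, hB.alt, hvv, smul_zero, zero_add, smul_eq_mul, mul_one] at h1
      rw [map_add, map_smul, map_smul, hB.alt, hv'v, smul_zero, add_zero, smul_eq_mul, mul_neg, mul_one,
        neg_eq_zero] at h2
      rw [h1, h2, zero_smul, zero_smul, add_zero]
    · rw [codisjoint_iff, Submodule.eq_top_iff']
      intro x
      obtain ⟨u, a, b, rfl, h1, h2⟩ := decompV hB hvv x
      exact Submodule.add_mem_sup (mem_hyp2.2 ⟨h1, h2⟩) (Submodule.mem_span_pair.2 ⟨a, b, rfl⟩)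
  · intro w hw u hu
    obtain ⟨a, b, rfl⟩ := Submodule.mem_span_pair.1 hu
    obtain ⟨h1, h2⟩ := mem_hyp2.1 hw
    rw [map_add, map_smul, map_smul, orth_symm hB h1, orth_symm hB h2, smul_zero, smul_zero, add_zero]

section Card

variable [Finite F] [Finite V]

theorem linInd_pair (hB : Symp B) {v v' : V} (hvv : B v v' = 1) : LinearIndependent F ![v, v'] := by
  rw [LinearIndependent.pair_iff]
  intro a b h
  have h1 := congrArg (B v) h
  have h3 := congrArg (fun x => B x v') h
  simp only [map_add, map_smul, hB.alt, hvv, smul_eq_mul, mul_one, mul_zero, zero_add, map_zero,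
    LinearMap.add_apply, LinearMap.smul_apply, LinearMap.zero_apply, add_zero] at h1 h3
  exact ⟨h3, h1⟩

theorem card_hyp2 (hB : Symp B) {m : ℕ} (hm : 1 ≤ m) (hV : Nat.card V = Nat.card F ^ (2 * m)) {v v' : V}
    (hvv : B v v' = 1) : Nat.card (hyp2 B v v') = Nat.card F ^ (2 * (m - 1)) := by
  have h1 := card_orth hB (linInd_pair hB hvv)
  have h3 : Nat.card {x : V // ∀ i, B ((![v, v'] : Fin 2 → V) i) x = 0} = Nat.card (hyp2 B v v') := by
    refine Nat.card_congr (Equiv.subtypeEquivRight fun x => ?_)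
    rw [Fin.forall_fin_two]
    rfl
  rw [h3, hV] at h1
  have h4 : 0 < Nat.card F ^ 2 := Nat.pow_pos Nat.card_pos
  refine Nat.eq_of_mul_eq_mul_right h4 ?_
  rw [h1, ← pow_add]
  congr 1
  omega

/-- a transvection has rank one -/
theorem t_mem_SI (hB : Symp B) (h2 : (2 : F) = 0) {v : V} (hv : v ≠ 0) {c : F} (hc : c ≠ 0) : t B v c ∈ SI B 1 := by
  refine ⟨?_, ?_⟩
  · rw [t_mul hB, ← two_mul, h2, zero_mul, t_zero hB]
  · have h1 : LinearMap.range (nl (t B v c)) = Submodule.span F {v} := by
      ext x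
      rw [Submodule.mem_span_singleton]
      constructor
      · rintro ⟨y, rfl⟩
        rw [nl_apply, t_smul hB]
        exact ⟨c * B y v, by abel⟩
      · rintro ⟨a, rfl⟩
        obtain ⟨y, hy⟩ := sep0 hB hv
        refine ⟨(-(a * c⁻¹)) • y, ?_⟩
        rw [nl_apply, t_smul hB, map_smul, LinearMap.smul_apply, skew hB, hy, smul_eq_mul]
        have : c * (-(a * c⁻¹) * -1) = a := by field_simp
        rw [this]
        abel
    rw [h1, finrank_span_singleton hv]

theorem t_ne_one (hB : Symp B) {v : V} (hv : v ≠ 0) {c : F} (hc : c ≠ 0) : t B v c ≠ 1 := by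
  intro h
  obtain ⟨y, hy⟩ := sep0 hB hv
  have h1 : t B v c • y = y := by rw [h, one_smul]
  rw [t_smul hB, skew hB, hy, add_eq_left, smul_eq_zero] at h1
  rcases h1 with h1 | h1
  · apply hc
    simpa using h1
  · exact hv h1

/-- one step: a transvection in `X` gives the transvections with orthogonal centres -/
theorem tv_step (hB : Symp B) (h2 : (2 : F) = 0) {m : ℕ} (hm : 3 ≤ m) (hV : Nat.card V = Nat.card F ^ (2 * m))
    (hm4 : Nat.card F = 2 → 4 ≤ m) {X : Subgroup (Sp B)} (hX : Hyp X) {v : V} {c : F} (hv : v ≠ 0) (hc : c ≠ 0)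
    (ht : t B v c ∈ X) {x : V} (hvx : B v x = 0) (hx : ∀ a : F, v ≠ a • x) : ∀ b : F, t B x b ∈ X := by
  obtain ⟨y, hy1, hy2⟩ := sep1 hB hx
  -- `B v y = 1`, `B x y = 0`
  have hd := dc_hyp2 hB hy2
  have hcard := card_hyp2 hB (by omega) hV hy2
  have hq2 : 2 ≤ Nat.card F := Finite.one_lt_card
  have hidx : X.relIndex (glue hB hd).range ^ 5 < 4 * Nat.card F ^ (1 * (2 * m - 1 + 1)) := by
    refine lt_of_lt_of_le (hX.e2 (t B v c) ht (t_ne_one hB hv hc) (t_mem_SI hB h2 hv hc).1 _ ?_)
      (index_le hB h2 hV (by omega) (t_mem_SI hB h2 hv hc))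
    apply glue_comm hB hd
    · intro w hw
      obtain ⟨h1, -⟩ := mem_hyp2.1 hw
      rw [t_smul_orth hB v c h1]
    · rintro _ ⟨z, rfl⟩
      rw [nl_apply, t_smul hB, add_sub_cancel_left]
      exact Submodule.smul_mem _ _ (Submodule.subset_span (by simp))
  have e0 : 1 * (2 * m - 1 + 1) = 2 * m := by omega
  rw [e0] at hidx
  have hxm : x ∈ hyp2 B v y := mem_hyp2.2 ⟨hvx, orth_symm hB hy1⟩
  rcases Nat.lt_or_ge 2 (Nat.card F) with hq | hq
  · -- `q ≥ 4`
    have hq4 : 4 ≤ Nat.card F := by
      by_contra hcon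
      have h3 : Nat.card F = 3 := by omega
      have : Fintype F := Fintype.ofFinite F
      have h4 : (3 : F) = 0 := by
        have := FiniteField.cast_card_eq_zero F
        rw [← Nat.card_eq_fintype_card, h3] at this
        exact_mod_cast this
      have h5 : (1 : F) = 0 := by
        have : (3 : F) - 2 = 1 := by norm_num
        rw [← this, h4, h2, sub_zero]
      exact one_ne_zero h5
    refine tv_of_three hB hd (r := m - 1) (by omega) hcard (by omega) (by omega) ?_ x hxm
    by_contra hcon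
    push Not at hcon
    have h3 : (Nat.card F ^ (2 * (m - 1) - 1)) ^ 5 ≤ X.relIndex (glue hB hd).range ^ 5 := Nat.pow_le_pow_left hcon 5
    have h4 : 4 * Nat.card F ^ (2 * m) ≤ (Nat.card F ^ (2 * (m - 1) - 1)) ^ 5 := by
      calc 4 * Nat.card F ^ (2 * m) ≤ Nat.card F * Nat.card F ^ (2 * m) := Nat.mul_le_mul_right _ hq4
        _ = Nat.card F ^ (2 * m + 1) := (pow_succ' _ _).symm
        _ ≤ Nat.card F ^ ((2 * (m - 1) - 1) * 5) := Nat.pow_le_pow_right (by omega) (by omega)
        _ = (Nat.card F ^ (2 * (m - 1) - 1)) ^ 5 := pow_mul _ _ _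
    omega
  · have hq' : Nat.card F = 2 := by omega
    have hm' := hm4 hq'
    rw [hq'] at hcard hidx
    refine tv_of_two hB hd (r := m - 1) (by omega) hq' hcard ?_ x hxm
    by_contra hcon
    push Not at hcon
    have h3 : (2 ^ (m - 1 - 1) * (2 ^ (m - 1) - 1)) ^ 5 ≤ X.relIndex (glue hB hd).range ^ 5 := Nat.pow_le_pow_left hcon 5
    have h5 : 2 ^ (m - 1 - 1) * 2 ^ (m - 1 - 1) ≤ 2 ^ (m - 1 - 1) * (2 ^ (m - 1) - 1) := by
      apply Nat.mul_le_mul_left
      have h6 : 2 ^ (m - 1) = 2 * 2 ^ (m - 1 - 1) := by rw [← pow_succ']; congr 1; omega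
      have h7 : 1 ≤ 2 ^ (m - 1 - 1) := Nat.one_le_pow _ _ (by norm_num)
      omega
    have h4 : 4 * 2 ^ (2 * m) ≤ (2 ^ (m - 1 - 1) * (2 ^ (m - 1) - 1)) ^ 5 := by
      calc 4 * 2 ^ (2 * m) = 2 ^ (2 + 2 * m) := by rw [pow_add]; norm_num
        _ ≤ 2 ^ ((m - 1 - 1 + (m - 1 - 1)) * 5) := Nat.pow_le_pow_right (by norm_num) (by omega)
        _ = (2 ^ (m - 1 - 1) * 2 ^ (m - 1 - 1)) ^ 5 := by rw [pow_mul, pow_add]
        _ ≤ (2 ^ (m - 1 - 1) * (2 ^ (m - 1) - 1)) ^ 5 := Nat.pow_le_pow_left h5 5
    omega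

/-- **all transvections** -/
theorem tv_all (hB : Symp B) (h2 : (2 : F) = 0) {m : ℕ} (hm : 3 ≤ m) (hV : Nat.card V = Nat.card F ^ (2 * m))
    (hm4 : Nat.card F = 2 → 4 ≤ m) {X : Subgroup (Sp B)} (hX : Hyp X) {v : V} {c : F} (hv : v ≠ 0) (hc : c ≠ 0)
    (ht : t B v c ∈ X) (x : V) : Tv X x := by
  by_cases hx0 : x = 0
  · rw [hx0]
    exact Tv.zero hB
  -- `z` orthogonal to `v` and `x`, outside of the span
  obtain ⟨z, hz1, hz2, hz3⟩ : ∃ z, B v z = 0 ∧ B x z = 0 ∧ ∀ a b : F, z ≠ a • v + b • x := by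
    by_contra hcon
    push Not at hcon
    have h1 : ∀ z : {z : V // B v z = 0 ∧ B x z = 0}, ∃ p : F × F, (z : V) = p.1 • v + p.2 • x := by
      intro z
      obtain ⟨a, b, h⟩ := hcon z z.2.1 z.2.2
      exact ⟨(a, b), h⟩
    choose f hf using h1
    have h3 : Nat.card {z : V // B v z = 0 ∧ B x z = 0} ≤ Nat.card (F × F) :=
      Nat.card_le_card_of_injective f fun a b hab => Subtype.ext (by rw [hf a, hf b, hab])
    rw [Nat.card_prod] at h3
    -- lower bound
    have h4 : Nat.card V ≤ Nat.card ({z : V // B v z = 0 ∧ B x z = 0}) * Nat.card (F × F) := by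
      let φ : V →+ F × F := { toFun := fun z => (B v z, B x z), map_zero' := by simp, map_add' := by intro a b; simp }
      have h5 := AddSubgroup.index_mul_card φ.ker
      rw [AddSubgroup.index_ker] at h5
      have h6 : Nat.card φ.ker = Nat.card {z : V // B v z = 0 ∧ B x z = 0} := by
        refine Nat.card_congr (Equiv.subtypeEquivRight fun z => ?_)
        rw [AddMonoidHom.mem_ker]
        show (B v z, B x z) = 0 ↔ _
        rw [Prod.mk_eq_zero]
      rw [← h5, h6, mul_comm]
      exact Nat.mul_le_mul_left _ (Nat.card_le_card_of_injective _ Subtype.val_injective)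
    rw [Nat.card_prod, hV] at h4
    have hq2 : 2 ≤ Nat.card F := Finite.one_lt_card
    have h7 : Nat.card F ^ (2 * m) ≤ Nat.card F ^ 4 := by
      calc Nat.card F ^ (2 * m) ≤ _ := h4
        _ ≤ (Nat.card F * Nat.card F) * (Nat.card F * Nat.card F) := Nat.mul_le_mul_right _ h3
        _ = Nat.card F ^ 4 := by ring
    have h8 := (Nat.pow_le_pow_iff_right (a := Nat.card F) hq2).1 h7
    omega
  have hz0 : z ≠ 0 := by
    intro h
    apply hz3 0 0
    rw [h, zero_smul, zero_smul, add_zero]
  have h1 := tv_step hB h2 hm hV hm4 hX hv hc ht hz1 (by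
    intro a ha
    by_cases ha0 : a = 0
    · rw [ha0, zero_smul] at ha
      exact hv ha
    · apply hz3 a⁻¹ 0
      rw [ha, smul_smul, inv_mul_cancel₀ ha0, one_smul, zero_smul, add_zero])
  exact tv_step hB h2 hm hV hm4 hX hz0 one_ne_zero (h1 1) (orth_symm hB hz2) (by
    intro a ha
    apply hz3 0 a
    rw [ha, zero_smul, zero_add])

end Card

/-! ### involutions of rank at most 2 -/

/-- `x ↦ B x (g x - x)` is additive and semilinear -/
theorem qf_add (h2 : (2 : F) = 0) (hB : Symp B) {g : Sp B} (hg : g * g = 1) (x y : V) :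
    B (x + y) (nl g (x + y)) = B x (nl g x) + B y (nl g y) := by
  have h1 : B x (nl g y) = B y (nl g x) := by
    rw [← nl_sym hg, skew hB, ← map_neg, negself h2]
  rw [map_add, map_add, map_add, LinearMap.add_apply, LinearMap.add_apply, h1]
  have h3 : B y (nl g x) + B y (nl g x) = 0 := by rw [← two_mul, h2, zero_mul]
  linear_combination h3

theorem isSq [Finite F] (h2 : (2 : F) = 0) (a : F) : ∃ c, a = c ^ 2 := by
  have h1 : ringChar F = 2 := by
    have hd : ringChar F ∣ 2 := (ringChar.spec F 2).1 (by exact_mod_cast h2)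
    rcases (Nat.dvd_prime Nat.prime_two).1 hd with h | h
    · exfalso
      have : CharP F 1 := by
        rw [← h]
        exact ringChar.charP F
      exact one_ne_zero (α := F) (by
        have := CharP.cast_eq_zero F 1
        rwa [Nat.cast_one] at this)
    · exact h
  obtain ⟨c, hc⟩ := FiniteField.isSquare_of_char_two h1 a
  exact ⟨c, by rw [hc, pow_two]⟩

/-- **an involution of rank at most 2 is a Siegel element** -/
theorem exists_E [Finite F] [Finite V] (h2 : (2 : F) = 0) (hB : Symp B) {g : Sp B} (hg : g * g = 1) (h1 : g ≠ 1)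
    (hr : finrank F (LinearMap.range (nl g)) ≤ 2) :
    (∃ (v : V) (c : F), v ≠ 0 ∧ c ≠ 0 ∧ g = t B v c) ∨ ∃ (w u : V) (c : F), B w u = 0 ∧ g = E B w u c := by
  have hq : ∀ (c : F) (x : V), B (c • x) (nl g (c • x)) = c ^ 2 * B x (nl g x) := by
    intro c x
    rw [map_smul, map_smul, map_smul, LinearMap.smul_apply, smul_eq_mul, smul_eq_mul]
    ring
  by_cases hiso : ∃ x, nl g x ≠ 0 ∧ B x (nl g x) = 0
  · right
    obtain ⟨x0, hx0, hx0'⟩ := hiso
    set z := nl g x0 with hz
    obtain ⟨y, hy⟩ := sep0 hB hx0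
    have hyz : B y z = 1 := by
      rw [skew hB, hy, ← sub_eq_zero]
      linear_combination (-1 : F) * h2
    have hz0 : nl g z = 0 := nl_nl h2 hg x0
    have hline : ∀ x1, B x1 z = 0 → ∃ a : F, nl g x1 = a • z := by
      intro x1 hx1
      by_contra hcon
      push Not at hcon
      have hli : LinearIndependent F ![z, nl g x1] := by
        rw [LinearIndependent.pair_iff]
        intro a b hab
        have hb : b = 0 := by
          by_contra hb
          apply hcon (-(b⁻¹ * a))
          have h3 : nl g x1 = b⁻¹ • (b • nl g x1) := by rw [smul_smul, inv_mul_cancel₀ hb, one_smul]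
          have h4 : b • nl g x1 = -(a • z) := by
            rw [eq_neg_iff_add_eq_zero, add_comm]
            exact hab
          rw [h3, h4, smul_neg, smul_smul, neg_smul]
        rw [hb, zero_smul, add_zero, smul_eq_zero] at hab
        exact ⟨hab.resolve_right hx0, hb⟩
      have hsp : Submodule.span F (Set.range ![z, nl g x1]) = LinearMap.range (nl g) := by
        apply Submodule.eq_of_le_of_finrank_le
        · rw [Submodule.span_le]
          rintro _ ⟨i, rfl⟩
          fin_cases i
          · exact ⟨x0, rfl⟩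
          · exact ⟨x1, rfl⟩
        · rw [finrank_span_eq_card hli, Fintype.card_fin]
          exact hr
      have h3 : nl g y ∈ Submodule.span F (Set.range ![z, nl g x1]) := by
        rw [hsp]
        exact ⟨y, rfl⟩
      rw [Matrix.range_cons, Matrix.range_cons, Matrix.range_empty, Set.union_empty, Set.singleton_union,
        Submodule.mem_span_pair] at h3
      obtain ⟨a, b, hab⟩ := h3
      have h4 : B (y - (a • x0 + b • x1)) z = 0 := by
        rw [hz, ← nl_sym hg, map_sub, map_add, map_smul, map_smul, ← hab]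
        show B (_ - _) _ = 0
        rw [sub_self, map_zero, LinearMap.zero_apply]
      rw [map_sub, map_add, map_smul, map_smul, LinearMap.sub_apply, LinearMap.add_apply, LinearMap.smul_apply,
        LinearMap.smul_apply, hx0', hx1, smul_zero, smul_zero, add_zero, sub_zero, hyz] at h4
      exact one_ne_zero h4
    have hw : B z (nl g y) = 0 := by rw [← nl_sym hg, hz0, map_zero, LinearMap.zero_apply]
    refine ⟨z, nl g y, B y (nl g y), hw, ?_⟩
    apply nl_inj
    intro x
    -- `x = B x z • y + x1`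
    set x1 := x - B x z • y with hx1
    have h3 : B x1 z = 0 := by
      rw [hx1, map_sub, map_smul, LinearMap.sub_apply, LinearMap.smul_apply, hyz, smul_eq_mul, mul_one, sub_self]
    obtain ⟨a, ha⟩ := hline x1 h3
    have h4 : B x1 (nl g y) = a := by
      rw [← nl_sym hg, ha, map_smul, LinearMap.smul_apply, hy, smul_eq_mul, mul_one]
    have hx : x = x1 + B x z • y := by rw [hx1]; abel
    have h5 : nl g x = a • z + B x z • nl g y := by
      nth_rewrite 1 [hx]
      rw [map_add, map_smul, ha]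
    have h6 : B x (nl g y) = a + B x z * B y (nl g y) := by
      nth_rewrite 1 [hx]
      rw [map_add, map_smul, LinearMap.add_apply, LinearMap.smul_apply, h4, smul_eq_mul]
    rw [nl_apply (E B z (nl g y) (B y (nl g y))), E_smul hB hw, h5, h6]
    have h7 : (B x z * B y (nl g y)) • z + (B x z * B y (nl g y)) • z = 0 := addself h2 _
    have h8 : x + B x z • nl g y + (a + B x z * B y (nl g y)) • z + (B y (nl g y) * B x z) • z - x =
        a • z + B x z • nl g y + ((B x z * B y (nl g y)) • z + (B x z * B y (nl g y)) • z) := by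
      rw [mul_comm (B y (nl g y))]
      module
    rw [h8, h7, add_zero]
  · left
    push Not at hiso
    obtain ⟨x, hx⟩ : ∃ x, nl g x ≠ 0 := by
      by_contra hcon
      push Not at hcon
      apply h1
      apply Sp.ext'
      intro x
      rw [smul_eq_add, hcon x, add_zero, one_smul]
    have hφ := hiso x hx
    have hline : ∀ x', ∃ a : F, nl g x' = a • nl g x := by
      intro x'
      obtain ⟨c, hc⟩ := isSq h2 (B x' (nl g x') * (B x (nl g x))⁻¹)
      refine ⟨c, ?_⟩
      by_contra hcon
      have h3 : nl g (x' - c • x) ≠ 0 := by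
        rw [map_sub, map_smul, sub_ne_zero]
        exact hcon
      apply hiso _ h3
      rw [sub_eq_add_neg, ← neg_smul, qf_add h2 hB hg, hq]
      have h4 : B x' (nl g x') = c ^ 2 * B x (nl g x) := by rw [← hc, mul_assoc, inv_mul_cancel₀ hφ, mul_one]
      rw [h4]
      linear_combination (c ^ 2 * B x (nl g x)) * h2
    refine ⟨nl g x, (B x (nl g x))⁻¹, hx, inv_ne_zero hφ, ?_⟩
    apply nl_inj
    intro x'
    obtain ⟨a, ha⟩ := hline x'
    have h3 : a * B x (nl g x) = B x' (nl g x) := by
      have h4 : B x (nl g x') = B (nl g x) x' := (nl_sym hg x x').symm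
      rw [ha, map_smul, smul_eq_mul] at h4
      rw [h4, skew hB, ← sub_eq_zero]
      linear_combination (-B x' (nl g x)) * h2
    rw [ha, nl_apply (t B (nl g x) _), t_smul hB, add_sub_cancel_left, ← h3]
    congr 1
    field_simp

end Cfsg.Agent.H407.IF
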