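import Cfsg.Agent.H407.IF.Asm
import Cfsg.Agent.H232.IF.SpDesc
import Cfsg.Agent.H333.IF.RankTwo

/-!
# S5719, the cell `CellsPSp.even`: `PSp_2m(q)`, `q` even, `m ≥ 3` (helper407; pieces of helper232 and helper333)

Step 1 (helper232): an involution of `X` gives one of rank at most 2; step 2 (helper333): a Siegel element of rank 2 gives a
transvection; step 3 (`tv_all`): a transvection gives all transvections.
-/

set_option autoImplicit false

namespace Cfsg.Agent.H407.IF

open Module Subgroup Cfsg Cfsg.Agent.H74.Psp Cfsg.Agent.H209.Fxy ClassicalGeometry.SympBasic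

/-- an involution of rank at most 2 in `X` gives a transvection in `X` -/
theorem exists_tv {F V : Type*} [Field F] [Finite F] [AddCommGroup V] [Module F V] [Finite V] {B : V →ₗ[F] V →ₗ[F] F}
    (hB : Symp B) (h2 : (2 : F) = 0) {m : ℕ} (hV : Nat.card V = Nat.card F ^ (2 * m)) (hm : 3 ≤ m)
    {X : Subgroup (Sp B)} (hX : Hyp X)
    (ht : ∃ t ∈ X, t ≠ 1 ∧ t * t = 1 ∧ finrank F (LinearMap.range (nl t)) ≤ 2) :
    ∃ (v : V) (c : F), v ≠ 0 ∧ c ≠ 0 ∧ t B v c ∈ X := by
  obtain ⟨t0, ht0, ht1, htt, hrk⟩ := ht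
  by_contra hcon
  rcases exists_E h2 hB htt ht1 hrk with ⟨v, c, hv, hc, rfl⟩ | ⟨w, u, c, hwu, rfl⟩
  · exact hcon ⟨v, c, hv, hc, ht0⟩
  · exact Cfsg.Agent.H333.IF.false_of_E hB h2 hV hm hX hcon hwu ht1 ht0

/-- **`CellsPSp.even`** -/
theorem killE_psp_even (F : Type) [Field F] [Fintype F] (m : ℕ) (hev : Even (Fintype.card F)) (hm : 3 ≤ m)
    (hs : IsSimpleGroup (PSp m F)) : KillE (PSp m F) := by
  have h2 : (2 : F) = 0 := by
    have h1 : ringChar F = 2 := FiniteField.even_card_iff_char_two.2 (Nat.even_iff.1 hev)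
    have h3 := (ringChar.spec F 2).2 (by rw [h1])
    exact_mod_cast h3
  have hB := symp_sympBilin (F := F) m
  have hV := card_model (F := F) m
  refine killE_of m hev hm hs (fun X hX hi => ?_) (fun X hX ht => exists_tv hB h2 hV hm hX ht)
  exact Cfsg.Agent.H232.IFS.exists_rank_le_two hB h2 hV hX hi

end Cfsg.Agent.H407.IF
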