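import Cfsg.Agent.H407.IF.Cls
import Cfsg.Agent.H74.SpM
import Cfsg.Agent.H79.MinIdxSp2.Final

/-!
# S5719, symplectic groups in characteristic 2 (helper407): the subgroup `Sp(W)` of `Sp B`

`Dc W W'` : `V = W ⟂ W'`; `glue` : `Sp(W) →* Sp B`; `tv_of` : if `|Sp(W) : Sp(W) ∩ X|` is smaller than the minimal index then `X`
contains all transvections with centre in `W`.
-/

set_option autoImplicit false
set_option linter.unusedSectionVars false
set_option linter.unusedSimpArgs false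

namespace Cfsg.Agent.H407.IF

open Module Subgroup Cfsg.Agent.H74.Psp

variable {F V : Type*} [Field F] [AddCommGroup V] [Module F V] {B : V →ₗ[F] V →ₗ[F] F}

/-- `V = W ⟂ W'` -/
structure Dc (B : V →ₗ[F] V →ₗ[F] F) (W W' : Submodule F V) : Prop where
  compl : IsCompl W W'
  orth : ∀ w ∈ W, ∀ u ∈ W', B w u = 0

/-- the form on `W` -/
def BW (B : V →ₗ[F] V →ₗ[F] F) (W : Submodule F V) : W →ₗ[F] W →ₗ[F] F := B.compl₁₂ W.subtype W.subtype

theorem BW_apply (W : Submodule F V) (x y : W) : BW B W x y = B x y := rfl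

variable {W W' : Submodule F V}

theorem Dc.exists_add (h : Dc B W W') (x : V) : ∃ w ∈ W, ∃ u ∈ W', x = w + u := by
  have h1 : x ∈ W ⊔ W' := by rw [h.compl.sup_eq_top]; trivial
  obtain ⟨w, hw, u, hu, rfl⟩ := Submodule.mem_sup.1 h1
  exact ⟨w, hw, u, hu, rfl⟩

theorem Dc.symp (h : Dc B W W') (hB : Symp B) : Symp (BW B W) := by
  refine ⟨fun x => hB.alt x, fun x hx => ?_⟩
  apply Subtype.ext
  apply hB.nd
  intro y
  obtain ⟨w, hw, u, hu, rfl⟩ := h.exists_add y
  rw [map_add, h.orth x x.2 u hu, add_zero]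
  exact hx ⟨w, hw⟩

/-- extension of an automorphism of `W` by the identity on `W'` -/
noncomputable def gl (h : Dc B W W') (g : W ≃ₗ[F] W) : V ≃ₗ[F] V :=
  (Submodule.prodEquivOfIsCompl W W' h.compl).symm.trans
    ((LinearEquiv.prodCongr g (LinearEquiv.refl F W')).trans (Submodule.prodEquivOfIsCompl W W' h.compl))

theorem gl_apply (h : Dc B W W') (g : W ≃ₗ[F] W) (w : W) (u : W') : gl h g (w + u : V) = (g w : V) + u := by
  have h1 : (Submodule.prodEquivOfIsCompl W W' h.compl) (w, u) = (w + u : V) := by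
    rw [Submodule.coe_prodEquivOfIsCompl']
  rw [← h1, gl, LinearEquiv.trans_apply, LinearEquiv.symm_apply_apply, LinearEquiv.trans_apply]
  show (Submodule.prodEquivOfIsCompl W W' h.compl) (g w, u) = _
  rw [Submodule.coe_prodEquivOfIsCompl']

theorem B_add (hB : Symp B) (h : Dc B W W') (w x : W) (u y : W') :
    B (w + u : V) (x + y : V) = B w x + B u y := by
  rw [map_add, map_add, LinearMap.add_apply, LinearMap.add_apply, h.orth w w.2 y y.2,
    orth_symm hB (h.orth x x.2 u u.2), add_zero, zero_add]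

/-- `Sp(W) →* Sp B` -/
noncomputable def glue (hB : Symp B) (h : Dc B W W') : Sp (BW B W) →* Sp B where
  toFun g := ⟨gl h g.1, fun x y => by
    obtain ⟨w, hw, u, hu, rfl⟩ := h.exists_add x
    obtain ⟨w1, hw1, u1, hu1, rfl⟩ := h.exists_add y
    have e1 := gl_apply h g.1 ⟨w, hw⟩ ⟨u, hu⟩
    have e2 := gl_apply h g.1 ⟨w1, hw1⟩ ⟨u1, hu1⟩
    have e3 := B_add hB h ⟨w, hw⟩ ⟨w1, hw1⟩ ⟨u, hu⟩ ⟨u1, hu1⟩
    have e4 := B_add hB h (g.1 ⟨w, hw⟩) (g.1 ⟨w1, hw1⟩) ⟨u, hu⟩ ⟨u1, hu1⟩
    have e5 : B (g.1 ⟨w, hw⟩ : W) (g.1 ⟨w1, hw1⟩ : W) = B w w1 := g.2 ⟨w, hw⟩ ⟨w1, hw1⟩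
    rw [e1, e2, e4, e5]
    exact e3.symm⟩
  map_one' := by
    apply Sp.ext'
    intro x
    obtain ⟨w, hw, u, hu, rfl⟩ := h.exists_add x
    exact gl_apply h 1 ⟨w, hw⟩ ⟨u, hu⟩
  map_mul' a b := by
    apply Sp.ext'
    intro x
    obtain ⟨w, hw, u, hu, rfl⟩ := h.exists_add x
    have e1 := gl_apply h (a * b : Sp (BW B W)).1 ⟨w, hw⟩ ⟨u, hu⟩
    have e2 := gl_apply h b.1 ⟨w, hw⟩ ⟨u, hu⟩
    have e3 := gl_apply h a.1 (b.1 ⟨w, hw⟩) ⟨u, hu⟩
    show gl h (a * b : Sp (BW B W)).1 (w + u) = gl h a.1 (gl h b.1 (w + u))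
    rw [show gl h b.1 (w + u) = _ from e2, e3]
    exact e1

theorem glue_smul (hB : Symp B) (h : Dc B W W') (g : Sp (BW B W)) (w : W) (u : W') :
    glue hB h g • (w + u : V) = ((g • w : W) : V) + u := gl_apply h g.1 w u

theorem glue_t (hB : Symp B) (h : Dc B W W') (v : W) (c : F) : glue hB h (t (BW B W) v c) = t B v c := by
  apply Sp.ext'
  intro x
  obtain ⟨w, hw, u, hu, rfl⟩ := h.exists_add x
  have e1 := glue_smul hB h (t (BW B W) v c) ⟨w, hw⟩ ⟨u, hu⟩
  have e2 : t (BW B W) v c • (⟨w, hw⟩ : W) = ⟨w, hw⟩ + (c * B w v) • v := t_smul (h.symp hB) v c _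
  rw [show glue hB h (t (BW B W) v c) • (w + u) = _ from e1, e2, t_smul hB, map_add, LinearMap.add_apply,
    orth_symm hB (h.orth v v.2 u hu), add_zero]
  show w + (c * B w v) • (v : V) + u = _
  abel

/-- elements acting trivially on `W` with `(g - 1) V ≤ W'` commute with `Sp(W)` -/
theorem glue_comm (hB : Symp B) (h : Dc B W W') {g : Sp B} (h1 : ∀ w ∈ W, g • w = w)
    (h2 : LinearMap.range (nl g) ≤ W') : ∀ b ∈ (glue hB h).range, b * g = g * b := by
  rintro _ ⟨a, rfl⟩
  apply Sp.ext'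
  intro x
  obtain ⟨w, hw, u, hu, rfl⟩ := h.exists_add x
  have e0 : g • u ∈ W' := by
    rw [smul_eq_add]
    exact W'.add_mem hu (h2 ⟨u, rfl⟩)
  have e1 := glue_smul hB h a ⟨w, hw⟩ ⟨u, hu⟩
  have e2 := glue_smul hB h a ⟨w, hw⟩ ⟨g • u, e0⟩
  rw [mul_smul, mul_smul, smul_add, h1 w hw, show glue hB h a • (w + g • u) = _ from e2,
    show glue hB h a • (w + u) = _ from e1, smul_add, h1 _ (a • (⟨w, hw⟩ : W)).2]

section Card

variable [Finite F] [Finite V]

/-- **the case `q ≥ 3`** -/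
theorem tv_of_three (hB : Symp B) (h : Dc B W W') {r : ℕ} (hr : 2 ≤ r) (hW : Nat.card W = Nat.card F ^ (2 * r))
    (hq : 3 ≤ Nat.card F) (hexc : ¬ (r = 2 ∧ Nat.card F = 3)) {X : Subgroup (Sp B)}
    (hi : X.relIndex (glue hB h).range < Nat.card F ^ (2 * r - 1)) : ∀ v ∈ W, ∀ c : F, t B v c ∈ X := by
  by_contra hcon
  push Not at hcon
  obtain ⟨v, hv, c, hc⟩ := hcon
  have h1 := min_index (h.symp hB) (H := X.comap (glue hB h)) ⟨⟨v, hv⟩, fun hTv => hc (by
    have h3 := hTv c
    rw [mem_comap, glue_t] at h3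
    exact h3)⟩ hr hW hq hexc
  rw [index_comap, hW] at h1
  set q := Nat.card F with hqd
  set i := X.relIndex (glue hB h).range with hid
  have h3 : q ^ (2 * r) = q * q ^ (2 * r - 1) := by rw [← pow_succ']; congr 1; omega
  have h4 : 1 ≤ q ^ (2 * r - 1) := Nat.one_le_pow _ _ (by omega)
  obtain ⟨p, hp⟩ : ∃ p, q = p + 1 := ⟨q - 1, by omega⟩
  have h5 : q - 1 = p := by omega
  rw [h5, h3] at h1
  have h6 : (i + 1) * p ≤ q ^ (2 * r - 1) * p := Nat.mul_le_mul_right _ hi
  have h7 : q * q ^ (2 * r - 1) = q ^ (2 * r - 1) * p + q ^ (2 * r - 1) := by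
    nth_rewrite 1 [hp]; ring
  rw [h7] at h1
  have h8 : (i + 1) * p = i * p + p := by ring
  omega

/-- **the case `q = 2`** -/
theorem tv_of_two (hB : Symp B) (h : Dc B W W') {r : ℕ} (hr : 3 ≤ r) (hq : Nat.card F = 2)
    (hW : Nat.card W = 2 ^ (2 * r)) {X : Subgroup (Sp B)}
    (hi : X.relIndex (glue hB h).range < 2 ^ (r - 1) * (2 ^ r - 1)) : ∀ v ∈ W, ∀ c : F, t B v c ∈ X := by
  have hS := h.symp hB
  have hF : ∀ a : F, a = 0 ∨ a = 1 := by
    intro a
    by_contra hcon
    push Not at hcon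
    classical
    have : Fintype F := Fintype.ofFinite F
    have h1 : ({0, 1, a} : Finset F).card ≤ Fintype.card F := Finset.card_le_univ _
    rw [Finset.card_insert_of_notMem, Finset.card_insert_of_notMem, Finset.card_singleton,
      ← Nat.card_eq_fintype_card, hq] at h1
    · omega
    · simp [hcon.2.symm]
    · simp [hcon.1.symm]
  have h11 : (1 : F) + 1 = 0 := by
    rcases hF (1 + 1) with h | h
    · exact h
    · exact absurd (add_eq_left.1 h) one_ne_zero
  have hneg : ∀ a : F, -a = a := by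
    intro a
    rw [neg_eq_iff_add_eq_zero, ← two_mul, ← one_add_one_eq_two, h11, zero_mul]
  set G : Subgroup (Sp (BW B W)) := closure (Set.range fun v : W => t (BW B W) v 1) with hG
  let S : Cfsg.Agent.H79.MinIdxSp2.Sp2 F W G :=
    { two := hF
      B := fun x y => BW B W x y
      add_left := fun u v w => by rw [map_add, LinearMap.add_apply]
      symm := fun u v => by rw [skew hS, hneg]
      self := hS.alt
      nd := hS.nd
      inv := fun g v w => B_smul_smul (g : Sp (BW B W)) v w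
      t := fun v => ⟨t (BW B W) v 1, subset_closure ⟨v, rfl⟩⟩
      t_smul := fun v x => by
        show t (BW B W) v 1 • x = _
        rw [t_smul hS, one_mul, skew hS, hneg]
      ext := fun g g' H => Subtype.ext (Sp.ext' H)
      gen := by
        have e1 : (Set.range fun v : W => (⟨t (BW B W) v 1, subset_closure ⟨v, rfl⟩⟩ : G)) =
            ((↑) : G → Sp (BW B W)) ⁻¹' (Set.range fun v : W => t (BW B W) v 1) := by
          ext g
          constructor
          · rintro ⟨v, rfl⟩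
            exact ⟨v, rfl⟩
          · rintro ⟨v, hv⟩
            exact ⟨v, Subtype.ext hv⟩
        rw [e1]
        exact Subgroup.closure_closure_coe_preimage }
  set H := X.comap (glue hB h) with hH
  have hGH : G ≤ H := by
    by_contra hcon
    have h1 : 1 < Nat.card (G ⧸ H.subgroupOf G) := by
      have h3 : (H.subgroupOf G).index ≠ 1 := by
        rw [Ne, index_eq_one]
        intro h4
        exact hcon (subgroupOf_eq_top.1 h4)
      have h5 : (H.subgroupOf G).index ≠ 0 := index_ne_zero_of_finite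
      rw [Subgroup.index] at h3 h5
      omega
    have h3 := S.le_card (X := G ⧸ H.subgroupOf G) hr hW h1
    have h4 : Nat.card (G ⧸ H.subgroupOf G) ≤ H.index := by
      have h5 : H.relIndex G ≤ H.relIndex ⊤ := relIndex_le_of_le_right le_top (by
        rw [relIndex_top_right]
        exact index_ne_zero_of_finite)
      rw [relIndex_top_right] at h5
      exact h5
    have h6 : H.index = X.relIndex (glue hB h).range := index_comap _ _
    omega
  intro v hv c
  have h1 : t (BW B W) ⟨v, hv⟩ c ∈ H := by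
    rcases hF c with rfl | rfl
    · rw [t_zero hS]
      exact H.one_mem
    · exact hGH (subset_closure ⟨⟨v, hv⟩, rfl⟩)
  rw [hH, mem_comap, glue_t] at h1
  exact h1

end Card

end Cfsg.Agent.H407.IF
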